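import Mathlib
import Cfsg.Agent.H46.ClassProd

/-!
Helper (helper46): characteristic two part of the class-product argument, and a refinement of
`sl2_pow_card_pm`.
-/

namespace Cfsg.Agent.H46

open Matrix Polynomial Cfsg.Agent.H44

section

variable {F : Type*} [Field F] [Fintype F]

/-- An element of `SL₂(F)` whose trace `t` has `t² ≠ 4` either has an eigenvalue in `F`
or satisfies `g^(q+1) = 1`. -/
theorem sl2_root_or_pow_card_succ (g : Matrix.SpecialLinearGroup (Fin 2) F)
    (ht : (g : Matrix (Fin 2) (Fin 2) F).trace ^ 2 ≠ 4) :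
    (∃ a : F, a ^ 2 - (g : Matrix (Fin 2) (Fin 2) F).trace * a + 1 = 0) ∨
      g ^ (Fintype.card F + 1) = 1 := by
  set t : F := (g : Matrix (Fin 2) (Fin 2) F).trace with htdef
  set L := AlgebraicClosure F with hL
  obtain ⟨p, hp⟩ := CharP.exists F
  have := hp
  have hpp : Fact p.Prime := ⟨CharP.char_is_prime F p⟩
  have : CharP L p := charP_of_injective_algebraMap (algebraMap F L).injective p
  obtain ⟨k, -, hk⟩ := FiniteField.card F p
  have hq1 : 1 ≤ Fintype.card F := Fintype.card_pos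
  have hdeg : (X ^ 2 - C (algebraMap F L t) * X + 1 : L[X]).degree ≠ 0 := by
    have : (X ^ 2 - C (algebraMap F L t) * X + 1 : L[X]).degree = 2 := by
      compute_degree!
    rw [this]
    norm_num
  obtain ⟨ξ, hξ'⟩ := IsAlgClosed.exists_root (X ^ 2 - C (algebraMap F L t) * X + 1 : L[X]) hdeg
  have hξ : ξ ^ 2 - algebraMap F L t * ξ + 1 = 0 := by
    simpa [Polynomial.IsRoot] using hξ'
  have hξ0 : ξ ≠ 0 := by
    rintro rfl
    simp at hξ
  have hξ2 : ξ ^ 2 ≠ 1 := by
    intro h
    apply ht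
    have h1 : algebraMap F L t * ξ = 2 := by linear_combination -hξ + h
    have h2 : algebraMap F L (t ^ 2) = algebraMap F L 4 := by
      rw [map_pow, map_ofNat]
      have : (algebraMap F L t * ξ) ^ 2 = 4 := by rw [h1]; norm_num
      rw [mul_pow, h, mul_one] at this
      exact this
    exact (algebraMap F L).injective h2
  have htξ : algebraMap F L t = ξ + ξ⁻¹ := by
    have h1 : algebraMap F L t * ξ = (ξ + ξ⁻¹) * ξ := by
      rw [add_mul, inv_mul_cancel₀ hξ0]
      linear_combination -hξ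
    exact mul_right_cancel₀ hξ0 h1
  have hfrob : (ξ ^ Fintype.card F) ^ 2 - algebraMap F L t * ξ ^ Fintype.card F + 1 = 0 := by
    have h1 := congrArg (iterateFrobenius L p k) hξ
    simp only [map_add, map_sub, map_mul, map_pow, map_one, map_zero, iterateFrobenius_def] at h1
    rw [← hk] at h1
    have h2 : algebraMap F L t ^ Fintype.card F = algebraMap F L t := by
      rw [← map_pow, FiniteField.pow_card]
    rw [h2] at h1
    exact h1
  have hprod : (ξ ^ Fintype.card F - ξ) * (ξ ^ Fintype.card F - ξ⁻¹) = 0 := by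
    have : (ξ ^ Fintype.card F - ξ) * (ξ ^ Fintype.card F - ξ⁻¹) =
        (ξ ^ Fintype.card F) ^ 2 - (ξ + ξ⁻¹) * ξ ^ Fintype.card F + ξ * ξ⁻¹ := by ring
    rw [this, mul_inv_cancel₀ hξ0, ← htξ]
    exact hfrob
  have hM := sl2_sq g
  rcases mul_eq_zero.mp hprod with h | h
  · left
    obtain ⟨a, ha⟩ := Cfsg.Agent.H7.mem_range_of_pow_card (F := F) ξ (sub_eq_zero.mp h)
    refine ⟨a, ?_⟩
    apply (algebraMap F L).injective
    rw [map_add, map_sub, map_mul, map_pow, map_one, map_zero, ha]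
    exact hξ
  · right
    have hn : ξ ^ (Fintype.card F + 1) = 1 := by
      rw [pow_succ, sub_eq_zero.mp h, inv_mul_cancel₀ hξ0]
    apply Subtype.ext
    rw [Matrix.SpecialLinearGroup.coe_pow]
    exact mat_pow_eq_one_of_root _ t hM ξ hξ hξ2 _ hn

variable [CharP F 2]

theorem two_eq_zero_of_charP_two : (2 : F) = 0 := by
  have := CharP.cast_eq_zero F 2
  exact_mod_cast this

/-- In characteristic two an element of `SL₂` with nonzero trace is non-scalar. -/
theorem nonScalar_of_trace_ne_zero_char_two (M : Matrix.SpecialLinearGroup (Fin 2) F)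
    (h : M.1.trace ≠ 0) : Cfsg.Agent.H44.NonScalar M.1 := by
  by_contra hns
  have h1 := SL2_eq_one_of_not_nonScalar_char_two M hns
  apply h
  rw [h1]
  simp only [Matrix.SpecialLinearGroup.coe_one, Matrix.trace_one, Fintype.card_fin]
  exact_mod_cast two_eq_zero_of_charP_two (F := F)

/-- The factor `Y` with trace `τ` such that `Y⁻¹ N` has trace `τ`, in characteristic two. -/
theorem exists_factor_char_two (μ s τ : F) (hμ : μ ≠ 0) (hroot : ∃ a : F, a ^ 2 - τ * a + 1 = 0) :
    ∃ Y : Matrix.SpecialLinearGroup (Fin 2) F, Y.1.trace = τ ∧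
      (Y⁻¹ * nfSL μ s hμ).1.trace = τ := by
  have h2 : (2 : F) = 0 := two_eq_zero_of_charP_two
  by_cases hs : s = 0
  · obtain ⟨a, ha⟩ := hroot
    have hdet : (!![a, 0; τ / μ, τ - a] : Matrix (Fin 2) (Fin 2) F).det = 1 := by
      rw [Matrix.det_fin_two_of]
      linear_combination -ha
    obtain ⟨Y, hY⟩ : ∃ Y : Matrix.SpecialLinearGroup (Fin 2) F, Y.1 = !![a, 0; τ / μ, τ - a] :=
      ⟨⟨_, hdet⟩, rfl⟩
    refine ⟨Y, ?_, ?_⟩
    · rw [hY]
      simp [Matrix.trace_fin_two]
    · rw [trace_inv_mul, nfSL_coe, hY, hs]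
      simp only [Matrix.of_apply, Matrix.cons_val', Matrix.cons_val_zero, Matrix.cons_val_one,
        Matrix.cons_val_fin_one]
      field_simp
      ring
  · obtain ⟨ρ, hρ⟩ := FiniteField.isSquare_of_char_two (ringChar.eq F 2) ((τ / s) * (τ + τ / s) + 1)
    have hdet : (!![τ / s, μ * ρ; ρ / μ, τ + τ / s] : Matrix (Fin 2) (Fin 2) F).det = 1 := by
      rw [Matrix.det_fin_two_of]
      have h3 : μ * ρ * (ρ / μ) = ρ * ρ := by field_simp
      rw [h3, ← hρ]
      linear_combination -h2
    obtain ⟨Y, hY⟩ : ∃ Y : Matrix.SpecialLinearGroup (Fin 2) F, Y.1 = !![τ / s, μ * ρ; ρ / μ, τ + τ / s] :=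
      ⟨⟨_, hdet⟩, rfl⟩
    refine ⟨Y, ?_, ?_⟩
    · rw [hY, Matrix.trace_fin_two_of]
      linear_combination (τ / s) * h2
    · rw [trace_inv_mul, nfSL_coe, hY]
      simp only [Matrix.of_apply, Matrix.cons_val', Matrix.cons_val_zero, Matrix.cons_val_one,
        Matrix.cons_val_fin_one]
      field_simp
      ring

end

end Cfsg.Agent.H46
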