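import Cfsg.Agent.H46.IcGradDef

set_option autoImplicit false
set_option maxRecDepth 100000

/-! IC-GRAD table facts, part C (kernel evaluation, one grading per lemma). -/

namespace Cfsg.Agent.H46.Ic

open Cfsg.Lie Cfsg.Agent.H23 Cfsg.Agent.H23.Ic

theorem gradq_21 : gradQ [10, 15, 20, 29, 23, 17, 11, 5] := by decide +kernel

theorem gradq_22 : gradQ [9, 14, 19, 29, 23, 17, 12, 6] := by decide +kernel

theorem gradq_23 : gradQ [10, 14, 19, 29, 23, 17, 11, 6] := by decide +kernel

theorem gradq_24 : gradQ [10, 14, 20, 29, 23, 17, 11, 5] := by decide +kernel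

theorem gradq_25 : gradQ [9, 15, 19, 29, 23, 17, 11, 6] := by decide +kernel

theorem gradq_26 : gradQ [10, 15, 19, 29, 23, 17, 11, 5] := by decide +kernel

theorem gradq_27 : gradQ [9, 14, 19, 29, 23, 17, 11, 6] := by decide +kernel

theorem gradq_28 : gradQ [10, 14, 19, 29, 23, 17, 11, 5] := by decide +kernel

theorem gradq_29 : gradQ [9, 15, 19, 29, 23, 17, 11, 5] := by decide +kernel

theorem gradq_30 : gradQ [9, 14, 19, 29, 23, 17, 11, 5] := by decide +kernel

end Cfsg.Agent.H46.Ic
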