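import Cfsg.Agent.H46.IcGradTabA
import Cfsg.Agent.H46.IcGradTabB
import Cfsg.Agent.H46.IcGradTabC

set_option autoImplicit false
set_option maxRecDepth 100000

/-!
# IC-GRAD (piece of S5751): `n_j` is graded-monomial
-/

namespace Cfsg.Agent.H46.Ic

open Cfsg.Lie Cfsg.Agent.H23 Cfsg.Agent.H23.Ic

section General

variable {D : ChevalleyDatum} {F : Type*} [Field F]

/-- The entry of `x_r(t)` at `(e_u, h_k)`. -/
theorem x_entry_rh (r : ℕ) (hr : r < D.nroots) (k : Fin D.rank) (u : Fin D.nroots) (t : F) :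
    D.x F r t (Sum.inr u) (Sum.inl k) =
      (((-((D.cartanSR.getD k.val #[]).getD r 0) : ℤ) : F) * t) * (if u.val = r then 1 else 0) := by
  have hk := k.isLt
  have hu := u.isLt
  rw [x_apply r hr, evalE_apply_inr, ix_inl]
  unfold xEntries
  rw [if_neg (by omega), if_pos (by omega)]
  have e1 : ¬ (u.val = D.nroots + k.val) := by omega
  simp [e1]

end General

/-- Table fact (packed form), assembled from the 31 kernel-evaluated lemmas. -/
theorem grad_tabQ : ∀ cr ∈ levC :: crs, gradQ cr := by
  intro cr hcr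
  simp only [crs, List.mem_cons, List.mem_nil_iff, or_false] at hcr
  rcases hcr with rfl | rfl | rfl | rfl | rfl | rfl | rfl | rfl | rfl | rfl | rfl | rfl | rfl | rfl | rfl | rfl | rfl | rfl | rfl | rfl | rfl | rfl | rfl | rfl | rfl | rfl | rfl | rfl | rfl | rfl | rfl
  exacts [gradq_0, gradq_1, gradq_2, gradq_3, gradq_4, gradq_5, gradq_6, gradq_7, gradq_8, gradq_9, gradq_10, gradq_11, gradq_12, gradq_13, gradq_14, gradq_15, gradq_16, gradq_17, gradq_18, gradq_19, gradq_20, gradq_21, gradq_22, gradq_23, gradq_24, gradq_25, gradq_26, gradq_27, gradq_28, gradq_29, gradq_30]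

/-- Table fact: the reflection `s_j` carries the grading `cr` to the grading `reflC j cr`. -/
theorem grad_tab : ∀ cr ∈ levC :: crs, ∀ j < chevE8.rank, ∀ s < chevE8.nroots,
    wN (reflC j cr) (chevE8.reflectRoot j s) = wN cr s ∧
      wN cr (chevE8.reflectRoot j s) = wN (reflC j cr) s := by
  intro cr hcr j hj s hs
  rw [tab_E8_refl_eq j hj s hs]
  exact grad_tabQ cr hcr j hj s hs

/-- Table fact: the gradings vanish on the `h`-block. -/
theorem grad_tabH : ∀ cr ∈ levC :: crs, ∀ j < chevE8.rank, ∀ i < chevE8.rank,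
    wN cr (chevE8.nroots + i) = 0 ∧ wN (reflC j cr) (chevE8.nroots + i) = 0 := by
  decide +kernel

/-- Table fact: every root has an odd Cartan integer. -/
theorem grad_tabOdd : ∀ s < chevE8.nroots, ∃ i, i < chevE8.rank ∧
    ((chevE8.cartanSR.getD i #[]).getD s 0) % 2 = 1 := by
  decide +kernel

theorem grad : StGrad := by
  intro cr hcr j hj a c hne
  have hjr : j < chevE8.rank := hj
  have hsl : chevE8.simple j < chevE8.nroots := hPk.tab.simple_lt j hjr
  have hM : ((nn j : GLE) : Matrix chevE8.Idx chevE8.Idx (ZMod 2)) =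
      chevE8.nMat (ZMod 2) (chevE8.simple j) 1 := nU_val hS _ 1
  rw [hM] at hne
  have hmono := hS.nmono (chevE8.simple j) hsl 1 one_ne_zero
  rcases c with i | s
  · rcases a with i' | u
    · have h1 := grad_tabH cr hcr j hjr i.val i.isLt
      have h2 := grad_tabH cr hcr j hjr i'.val i'.isLt
      exact ⟨h2.2.trans h1.1.symm, h2.1.trans h1.2.symm⟩
    · exact absurd (hmono.2 i u) hne
  · obtain ⟨s', hs'⟩ := hmono.1 s
    have ha := hs' a hne
    subst ha
    have hρ : chevE8.reflectRoot j s.val < chevE8.nroots := hPk.tab.refl_lt j hjr s.val s.isLt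
    have key : s'.val = chevE8.reflectRoot j s.val := by
      by_contra hq
      apply hne
      obtain ⟨i, hi, hodd⟩ := grad_tabOdd s.val s.isLt
      have hconj := hPk.semN.conj j hjr s.val s.isLt (1 : ZMod 2)
      have e := congrFun (congrFun hconj (Sum.inr s')) (Sum.inl ⟨i, hi⟩)
      rw [Matrix.mul_apply, Matrix.mul_apply] at e
      have hl : ∀ b : chevE8.Idx, b ≠ Sum.inr s →
          chevE8.nMat (ZMod 2) (chevE8.simple j) 1 (Sum.inr s') b *
            chevE8.x (ZMod 2) s.val 1 b (Sum.inl ⟨i, hi⟩) = 0 := by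
        intro b hb
        rcases b with k | u
        · rw [hmono.2 k s', zero_mul]
        · have hus : u.val ≠ s.val := fun h => hb (congrArg Sum.inr (Fin.ext h))
          rw [x_entry_rh s.val s.isLt ⟨i, hi⟩ u 1, if_neg hus, mul_zero, mul_zero]
      have hr : ∀ b ∈ (Finset.univ : Finset chevE8.Idx),
          chevE8.x (ZMod 2) (chevE8.reflectRoot j s.val)
              ((((fun i s => etaBit (etaE8.getD i 0) s) j s.val : ℤ) : ZMod 2) * 1) (Sum.inr s') b *
            chevE8.nMat (ZMod 2) (chevE8.simple j) 1 b (Sum.inl ⟨i, hi⟩) = 0 := by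
        intro b _
        rcases b with k | u
        · rw [x_entry_rh _ hρ k s' _, if_neg hq, mul_zero, zero_mul]
        · rw [hmono.2 ⟨i, hi⟩ u, mul_zero]
      rw [Fintype.sum_eq_single (Sum.inr s) hl, Finset.sum_eq_zero hr,
        x_entry_rh s.val s.isLt ⟨i, hi⟩ s 1, if_pos rfl, mul_one, mul_one] at e
      rcases mul_eq_zero.mp e with h | h
      · exact h
      · exfalso
        have h2 := (ZMod.intCast_zmod_eq_zero_iff_dvd _ 2).mp h
        push_cast at h2
        omega
    have hsv : s' = ⟨chevE8.reflectRoot j s.val, hρ⟩ := Fin.ext key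
    subst hsv
    exact grad_tab cr hcr j hjr s.val s.isLt

example : Cfsg.Agent.H23.Ic.StGrad := grad

end Cfsg.Agent.H46.Ic

#print axioms Cfsg.Agent.H46.Ic.grad
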