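import Cfsg.Agent.H23.IcDefs

set_option autoImplicit false
set_option maxRecDepth 100000

/-!
# IC-GRAD (piece of S5751): the table fact, stated with the packed reflection table
-/

namespace Cfsg.Agent.H46.Ic

open Cfsg.Lie Cfsg.Agent.H23 Cfsg.Agent.H23.Ic

/-- The reflection `s_j` (read off the packed table `rTE8`) carries the grading `cr` to the grading
`reflC j cr`. -/
def gradQ (cr : List ℤ) : Prop := ∀ j < chevE8.rank, ∀ s < chevE8.nroots,
    wN (reflC j cr) (rlk (rTE8.getD j 0) s) = wN cr s ∧
      wN cr (rlk (rTE8.getD j 0) s) = wN (reflC j cr) s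

instance gradQ_dec : DecidablePred gradQ := fun cr => by unfold gradQ; infer_instance

end Cfsg.Agent.H46.Ic
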