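import Cfsg.Agent.H23.Tw7
import Cfsg.Agent.H56.SqDefs

set_option autoImplicit false

/-!
# Twisted groups in characteristic two: the fixed points in `U` are generated by involutions

A variant of `Cfsg.Agent.H23.fix_mem`: every fixed point of the twisting endomorphism in `U_n⁻` is a product of
fixed involutions of `U_n⁻`, when the block elements are involutions. With the order of the twisted group this
gives a `2`-subgroup of odd index generated by involutions.
-/

namespace Cfsg.Agent.H46.Sq

open Cfsg.Lie Cfsg.Agent.H23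

variable {D : ChevalleyDatum} {F : Type*} [Field F] {z η : ℕ → ℕ → ℤ}

theorem xL_zero (hS : Sem D F z) (L : List ℕ) : xL hS L (fun _ => 0) = 1 := by
  induction L with
  | nil => rfl
  | cons a L ih => rw [xL_cons, ih, xU_zero, one_mul]

/-- The fixed involutions of `U_n⁻`, `n = n_w`. -/
def InvSet {hS : Sem D F z} (T : TwSys hS) (w : List ℕ) : Set (GL D.Idx F) :=
  {t | t ∈ UmG D F (nWU hS w) ∧ T.σ t = t ∧ t * t = 1}

section Main

variable (hP : PackB D F z η) (hV : SemV D F) {rT : List ℕ} (hTT : TabT D rT) (hTL : TabL D rT)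
  {T : TwSys hP.sem} (B : TwBlocks T)
include hV hTT hTL

/-- Fixed points in `U_n⁻` are products of fixed involutions of `U_n⁻`. -/
theorem fix_mem_invol (hinv : ∀ L ∈ B.blocks, ∀ s ∈ B.S L, B.gen L s * B.gen L s = 1) :
    ∀ N : ℕ, ∀ w : List ℕ, BW B.blocks w → invN D w.reverse < N →
      ∀ u ∈ UmG D F (nWU hP.sem w), T.σ u = u → u ∈ Subgroup.closure (InvSet T w) := by
  have hS := hP.sem
  intro N
  induction N with
  | zero => intro w _ h; omega
  | succ N ih =>
    intro w hw hN u hu hfix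
    by_cases h0 : invN D w.reverse = 0
    · rw [UmG_eq_bot hP hV w (hw.lt B) h0, Subgroup.mem_bot] at hu
      rw [hu]; exact Subgroup.one_mem _
    · obtain ⟨L, hL, hneg⟩ := exists_block_neg hP hV hTT hTL B w hw (by omega)
      obtain ⟨u', hu', hfix', s, hs, rfl⟩ := fix_peel hP hV hTT hTL B w hw L hL hneg u hu hfix
      have hb := B.blk L hL
      have hlen : 0 < L.length := List.length_pos_iff.mpr hb.ne
      have hinv' := invN_block hS hP.tab L hb.ok w (hw.lt B) hneg
      have h1 := ih (w ++ L) (hw.append hL) (by omega) u' hu' hfix'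
      have hconj : Subgroup.closure (InvSet T (w ++ L)) ≤
          (Subgroup.closure (InvSet T w)).comap (MulAut.conj (nWU hP.sem L)).toMonoidHom := by
        rw [Subgroup.closure_le]
        rintro t ⟨ht1, ht2, ht3⟩
        show nWU hP.sem L * t * (nWU hP.sem L)⁻¹ ∈ Subgroup.closure (InvSet T w)
        apply Subgroup.subset_closure
        refine ⟨?_, ?_, ?_⟩
        · have := peel_mem hP hV hTT hTL L hb.ok w (hw.lt B) hneg t ht1 (fun _ => 0)
          rwa [xL_zero, mul_one] at this
        · rw [map_mul, map_mul, map_inv, hb.nfix, ht2]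
        · calc nWU hP.sem L * t * (nWU hP.sem L)⁻¹ * (nWU hP.sem L * t * (nWU hP.sem L)⁻¹)
              = nWU hP.sem L * (t * t) * (nWU hP.sem L)⁻¹ := by group
            _ = 1 := by rw [ht3]; group
      have h2 : nWU hP.sem L * u' * (nWU hP.sem L)⁻¹ ∈ Subgroup.closure (InvSet T w) := hconj h1
      have h3 : B.gen L s ∈ InvSet T w := by
        obtain ⟨t, ht⟩ := hb.gform s hs
        refine ⟨?_, hb.gfix s hs, hinv L hL s hs⟩
        have := peel_mem hP hV hTT hTL L hb.ok w (hw.lt B) hneg 1 (Subgroup.one_mem _) t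
        rw [ht]
        simpa using this
      exact Subgroup.mul_mem _ h2 (Subgroup.subset_closure h3)

variable {K : Subgroup (GL D.Idx F)} (hK : TwGroup hP T B K)
  (w₀ : List ℕ) (hW : TabW D w₀) (hbw : BW B.blocks w₀)
include hK hW hbw

/-- `U ∩ G¹` is generated by its involutions, when the block elements are involutions. -/
theorem pos_inf_le_closure (hinv : ∀ L ∈ B.blocks, ∀ s ∈ B.S L, B.gen L s * B.gen L s = 1) :
    D.posUnipotent F ⊓ K ≤ Subgroup.closure {t | t ∈ D.posUnipotent F ⊓ K ∧ t * t = 1} := by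
  intro u hu
  obtain ⟨h1, h2⟩ := (pos_inf_iff hP hV hTT hTL B hK w₀ hW hbw u).mp hu
  have h3 := fix_mem_invol hP hV hTT hTL B hinv (invN D w₀.reverse + 1) w₀ hbw (Nat.lt_succ_self _) u h1 h2
  refine Subgroup.closure_mono ?_ h3
  rintro t ⟨ht1, ht2, ht3⟩
  exact ⟨(pos_inf_iff hP hV hTT hTL B hK w₀ hW hbw t).mpr ⟨ht1, ht2⟩, ht3⟩

end Main

/-- A subgroup `U₀ ≤ G` of order `q ^ N`, `q` a power of two, generated by involutions, with `|G| · c = q ^ N · M`,
`M` odd, witnesses `GoodSyl G`. -/
theorem goodSyl_of_sub {X : Type*} [Group X] (G U0 : Subgroup X) (hle : U0 ≤ G)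
    (q N M k c : ℕ) (hq : q = 2 ^ k) (hU : Nat.card U0 = q ^ N) (hG : c * Nat.card G = q ^ N * M) (hM : Odd M)
    (hgen : U0 ≤ Subgroup.closure {t | t ∈ U0 ∧ t * t = 1}) : Cfsg.Agent.H56.Sq.GoodSyl G := by
  have hq0 : 0 < q := by rw [hq]; positivity
  have hcard : Nat.card (U0.subgroupOf G) = q ^ N := by
    rw [← hU]; exact Nat.card_congr (Subgroup.subgroupOfEquivOfLe hle).toEquiv
  apply Cfsg.Agent.H56.Sq.goodSyl_of_invol (U0.subgroupOf G)
  · apply IsPGroup.of_card (n := k * N)
    rw [hcard, hq, pow_mul]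
  · intro h2
    have h3 : (U0.subgroupOf G).index * Nat.card (U0.subgroupOf G) = Nat.card G := Subgroup.index_mul_card _
    have h4 : q ^ N * (c * (U0.subgroupOf G).index) = q ^ N * M := by
      rw [← hG, ← h3, hcard]; ring
    have h5 : c * (U0.subgroupOf G).index = M := Nat.eq_of_mul_eq_mul_left (pow_pos hq0 N) h4
    have h6 : 2 ∣ M := by rw [← h5]; exact Dvd.dvd.mul_left h2 c
    exact (Nat.not_even_iff_odd.mpr hM) (even_iff_two_dvd.mpr h6)
  · intro u hu
    have hu0 : (u : X) ∈ U0 := hu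
    have h1 := hgen hu0
    have hS : {t : X | t ∈ U0 ∧ t * t = 1} = G.subtype '' {t : G | t ∈ U0.subgroupOf G ∧ t ^ 2 = 1} := by
      ext t
      constructor
      · rintro ⟨ht1, ht2⟩
        refine ⟨⟨t, hle ht1⟩, ⟨ht1, ?_⟩, rfl⟩
        apply Subtype.ext
        rw [pow_two]
        exact ht2
      · rintro ⟨y, ⟨hy1, hy2⟩, rfl⟩
        refine ⟨hy1, ?_⟩
        have h := congrArg Subtype.val hy2
        rw [pow_two] at h
        exact h
    rw [hS, ← MonoidHom.map_closure] at h1
    obtain ⟨y, hy, hyu⟩ := h1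
    have e : y = u := Subtype.ext hyu
    rw [← e]; exact hy

/-- Three pairwise commuting involutions. -/
theorem sq3 {G : Type*} [Group G] (A B C : G) (hAB : A * B = B * A) (hAC : A * C = C * A) (hBC : B * C = C * B)
    (hA : A * A = 1) (hB : B * B = 1) (hC : C * C = 1) : C * B * A * (C * B * A) = 1 := by
  calc C * B * A * (C * B * A) = C * B * (A * C) * B * A := by group
    _ = C * B * (C * A) * B * A := by rw [hAC]
    _ = C * (B * C) * (A * B) * A := by group
    _ = C * (C * B) * (B * A) * A := by rw [hBC, hAB]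
    _ = (C * C) * (B * B) * (A * A) := by group
    _ = 1 := by rw [hA, hB, hC]; group

/-- Two commuting involutions. -/
theorem sq2 {G : Type*} [Group G] (A B : G) (hAB : A * B = B * A) (hA : A * A = 1) (hB : B * B = 1) :
    B * A * (B * A) = 1 := by
  calc B * A * (B * A) = B * (A * B) * A := by group
    _ = B * (B * A) * A := by rw [hAB]
    _ = (B * B) * (A * A) := by group
    _ = 1 := by rw [hA, hB]; group

/-- A prime power whose square or cube is the order of a field of characteristic two is a power of two. -/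
theorem pow_two_of_card (K : Type*) [Field K] [Fintype K] [CharP K 2] (q d : ℕ) (hd : d ≠ 0)
    (hK : Fintype.card K = q ^ d) : ∃ k, q = 2 ^ k := by
  obtain ⟨n, -, hn⟩ := FiniteField.card K 2
  have h1 : q ∣ 2 ^ (n : ℕ) := by
    rw [← hn, hK]; exact dvd_pow_self q hd
  obtain ⟨m, -, hm⟩ := (Nat.dvd_prime_pow Nat.prime_two).mp h1
  exact ⟨m, hm⟩

theorem odd_pow_sub_one (q j : ℕ) (hq : Even q) (hq0 : 0 < q) (hj : j ≠ 0) : Odd (q ^ j - 1) :=
  Nat.Even.sub_odd (Nat.one_le_pow _ _ hq0) (Even.pow_of_ne_zero hq hj) odd_one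

theorem odd_pow_add_one (q j : ℕ) (hq : Even q) (hj : j ≠ 0) : Odd (q ^ j + 1) :=
  Even.add_one (Even.pow_of_ne_zero hq hj)

end Cfsg.Agent.H46.Sq
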