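import Cfsg.Agent.H46.StKer
import Cfsg.Agent.H85.SteinbergFin

set_option autoImplicit false
set_option linter.unusedSectionVars false

/-!
# The relators (R3) in a group satisfying (R1), (R2) over a finite field

In a group `Γ` with elements `x̄_r(t)` satisfying (R1), (R2) and mapping onto the Chevalley group, the pair
`x̄_r`, `x̄_{-r}` satisfies the rank one Steinberg relations, for every root `r`; over a finite field the elements
`h̄_r(t)` are then multiplicative in `t` (helper85's `StFin.h_mul`).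
-/

namespace Cfsg.Agent.H46

open Cfsg.Lie Cfsg.Agent.H23

variable {D : ChevalleyDatum} {K : Type*} [Field K] {Γ : Type*} [Group Γ] {z η : ℕ → ℕ → ℤ}

section R3

variable (C : StCtx D K Γ z η)

/-- `n̄_{-p}(v)` acts monomially. -/
theorem Mon_nB_neg (i : ℕ) (hi : i < D.rank) (v : K) (hv : v ≠ 0) :
    Mon C (nB D C.xb (D.neg (D.simple i)) v) [i, i, i] := by
  have hT := C.hP.tab
  have hp := hT.simple_lt i hi
  have hM := Mon_nB C i hi 1 one_ne_zero
  obtain ⟨c, hc0, hc⟩ := Mon_conj_nB C hM (D.simple i) hp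
  have e : reflW D [i] (D.simple i) = D.neg (D.simple i) := reflectRoot_simple D i
  rw [e] at hc
  have h1 := hc (c⁻¹ * v)
  rw [mul_inv_cancel_left₀ hc0] at h1
  rw [← h1]
  have hi' : ∀ j ∈ [i], j < D.rank := by simpa using hi
  exact Mon_mul C (Mon_mul C hM (Mon_nB C i hi (c⁻¹ * v) (mul_ne_zero (inv_ne_zero hc0) hv)) hi')
    (Mon_inv C hM hi') hi'

/-- The constant of the conjugation of `x̄_p` by `n̄_p(t)` is `-t⁻²`. -/
theorem nB_conj_const (i : ℕ) (hi : i < D.rank) (t : K) (ht : t ≠ 0) (c : K)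
    (h1 : ∀ u : K, nB D C.xb (D.simple i) t * C.xb (D.simple i) u * (nB D C.xb (D.simple i) t)⁻¹ =
      C.xb (D.neg (D.simple i)) (c * u)) : c * t + t⁻¹ = 0 := by
  have hT := C.hP.tab
  have hp := hT.simple_lt i hi
  have hnp := hT.neg_lt _ hp
  have hnn := hT.neg_neg _ hp
  set p := D.simple i with hpdef
  -- step 1
  have s1 : nB D C.xb p t = C.xb (D.neg p) (c * t) * C.xb p t * C.xb (D.neg p) (-t⁻¹) := by
    have h2 := h1 t
    rw [mul_inv_eq_iff_eq_mul] at h2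
    have h3 : C.xb p t * C.xb (D.neg p) (-t⁻¹) * C.xb p t * C.xb p t =
        C.xb (D.neg p) (c * t) * C.xb p t * C.xb (D.neg p) (-t⁻¹) * C.xb p t := by
      have : nB D C.xb p t = C.xb p t * C.xb (D.neg p) (-t⁻¹) * C.xb p t := rfl
      rw [this] at h2
      rw [h2]; simp only [mul_assoc]
    exact mul_right_cancel h3
  -- step 2
  have s2 : nB D C.xb (D.neg p) (-t⁻¹) = C.xb (D.neg p) (-t⁻¹) * C.xb p t * C.xb (D.neg p) (-t⁻¹) := by
    unfold nB
    rw [hnn, inv_neg, inv_inv, neg_neg]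
  have s3 : C.xb (D.neg p) (c * t + t⁻¹) = nB D C.xb p t * (nB D C.xb (D.neg p) (-t⁻¹))⁻¹ := by
    rw [eq_mul_inv_iff_mul_eq, s1, s2, ← C.rel.add _ hnp]
    have e1 : C.xb (D.neg p) t⁻¹ * C.xb (D.neg p) (-t⁻¹) = 1 := by
      rw [C.rel.add _ hnp, add_neg_cancel, xb_zero C.rel _ hnp]
    calc C.xb (D.neg p) (c * t) * C.xb (D.neg p) t⁻¹ *
          (C.xb (D.neg p) (-t⁻¹) * C.xb p t * C.xb (D.neg p) (-t⁻¹))
        = C.xb (D.neg p) (c * t) * (C.xb (D.neg p) t⁻¹ * C.xb (D.neg p) (-t⁻¹)) * C.xb p t *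
          C.xb (D.neg p) (-t⁻¹) := by simp only [mul_assoc]
      _ = C.xb (D.neg p) (c * t) * C.xb p t * C.xb (D.neg p) (-t⁻¹) := by rw [e1, mul_one]
  -- step 3
  have hi' : ∀ j ∈ [i], j < D.rank := by simpa using hi
  have hi3 : ∀ j ∈ [i, i, i], j < D.rank := by simpa using hi
  have hM : Mon C (C.xb (D.neg p) (c * t + t⁻¹)) ([i] ++ [i, i, i].reverse) := by
    rw [s3]
    exact Mon_mul C (Mon_nB C i hi t ht)
      (Mon_inv C (Mon_nB_neg C i hi (-t⁻¹) (neg_ne_zero.mpr (inv_ne_zero ht))) hi3)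
      (fun j hj => hi3 j (List.mem_reverse.mp hj))
  obtain ⟨c', hc'0, hc', -⟩ := hM p hp
  have e : reflW D ([i] ++ [i, i, i].reverse) p = p := by
    show D.reflectRoot i (D.reflectRoot i (D.reflectRoot i (D.reflectRoot i p))) = p
    rw [hT.refl_invol i hi _ (hT.refl_lt i hi _ (hT.refl_lt i hi _ hp)), hT.refl_invol i hi _ hp]
  rw [e] at hc'
  -- step 4
  by_contra hd
  have h4 := xb_neg_eq C p hp _ hd
  set d := c * t + t⁻¹ with hddef
  obtain ⟨c'', hc''0, hc'', -⟩ := Mon_nB_simple C i hi (-d⁻¹) (neg_ne_zero.mpr (inv_ne_zero hd))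
  have h5 := hc' 1
  have comm1 : C.xb p d⁻¹ * C.xb p 1 * (C.xb p d⁻¹)⁻¹ = C.xb p 1 := by
    rw [mul_inv_eq_iff_eq_mul, C.rel.add _ hp, C.rel.add _ hp, add_comm]
  have h6 : C.xb (D.neg p) d * C.xb p 1 * (C.xb (D.neg p) d)⁻¹ =
      C.xb p d⁻¹ * C.xb (D.neg p) (c'' * 1) * (C.xb p d⁻¹)⁻¹ := by
    rw [← hc'' 1, h4]
    calc C.xb p d⁻¹ * nB D C.xb p (-d⁻¹) * C.xb p d⁻¹ * C.xb p 1 *
          (C.xb p d⁻¹ * nB D C.xb p (-d⁻¹) * C.xb p d⁻¹)⁻¹
        = C.xb p d⁻¹ * (nB D C.xb p (-d⁻¹) * (C.xb p d⁻¹ * C.xb p 1 * (C.xb p d⁻¹)⁻¹) *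
            (nB D C.xb p (-d⁻¹))⁻¹) * (C.xb p d⁻¹)⁻¹ := by group
      _ = C.xb p d⁻¹ * (nB D C.xb p (-d⁻¹) * C.xb p 1 * (nB D C.xb p (-d⁻¹))⁻¹) * (C.xb p d⁻¹)⁻¹ := by
          rw [comm1]
  rw [h6] at h5
  have h7 : C.xb (D.neg p) (c'' * 1) = C.xb p (c' * 1) := by
    have h8 : C.xb (D.neg p) (c'' * 1) = (C.xb p d⁻¹)⁻¹ * C.xb p (c' * 1) * C.xb p d⁻¹ := by
      rw [← h5]; group
    rw [h8, mul_assoc, inv_mul_eq_iff_eq_mul, C.rel.add _ hp, C.rel.add _ hp, add_comm]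
  have h9 := congrArg C.π h7
  rw [C.hπ, C.hπ] at h9
  have h10 := xU_eq_imp C.hP _ _ hnp hp _ _ h9 (by rw [mul_one]; exact hc''0)
  exact C.hP.tab2.neg_ne p hp h10

/-- Conjugation of `x̄_p` by `n̄_p(t)`, with the constant. -/
theorem conj_nB_simple_eq (i : ℕ) (hi : i < D.rank) (t : K) (ht : t ≠ 0) (u : K) :
    nB D C.xb (D.simple i) t * C.xb (D.simple i) u * (nB D C.xb (D.simple i) t)⁻¹ =
      C.xb (D.neg (D.simple i)) (-(u / t ^ 2)) := by
  obtain ⟨c, hc0, h1, -⟩ := Mon_nB_simple C i hi t ht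
  have hc := nB_conj_const C i hi t ht c h1
  rw [h1 u]
  congr 1
  have : c = -(t ^ 2)⁻¹ := by
    field_simp at hc ⊢
    linear_combination hc
  rw [this]; field_simp

/-- Conjugation of `x̄_{-p}` by `n̄_p(t)`, with the constant. -/
theorem conj_nB_neg_simple_eq (i : ℕ) (hi : i < D.rank) (t : K) (ht : t ≠ 0) (u : K) :
    nB D C.xb (D.simple i) t * C.xb (D.neg (D.simple i)) u * (nB D C.xb (D.simple i) t)⁻¹ =
      C.xb (D.simple i) (-(u * t ^ 2)) := by
  obtain ⟨c, hc0, h1, h2⟩ := Mon_nB_simple C i hi t ht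
  have hc := nB_conj_const C i hi t ht c h1
  rw [h2 u]
  congr 1
  have : c = -(t ^ 2)⁻¹ := by
    field_simp at hc ⊢
    linear_combination hc
  rw [this, inv_neg, inv_inv]; ring

/-- The rank one Steinberg relations for a fundamental root. -/
theorem isSteinberg_simple (i : ℕ) (hi : i < D.rank) :
    H85.IsSteinberg (C.xb (D.simple i)) (C.xb (D.neg (D.simple i))) where
  add_a := fun s t => (C.rel.add _ (C.hP.tab.simple_lt i hi) s t).symm
  add_b := fun s t => (C.rel.add _ (C.hP.tab.neg_lt _ (C.hP.tab.simple_lt i hi)) s t).symm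
  conj_a := fun t ht s => conj_nB_simple_eq C i hi t ht s
  conj_b := fun t ht s => conj_nB_neg_simple_eq C i hi t ht s

/-- The rank one Steinberg relations for every root. -/
theorem isSteinberg_root (r : ℕ) (hr : r < D.nroots) : H85.IsSteinberg (C.xb r) (C.xb (D.neg r)) := by
  have hT := C.hP.tab
  obtain ⟨w, hw, j, hj, e⟩ := exists_word_to_simple hT r hr
  obtain ⟨c, hc0, h1, h2⟩ := Mon_nWB C w hw r hr
  rw [e] at h1 h2
  set g := nWB C w with hg
  set p := D.simple j with hp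
  have hS := isSteinberg_simple C j hj
  rw [← hp] at hS
  have a1 : ∀ u, C.xb r u = g⁻¹ * C.xb p (c * u) * g := fun u => by rw [← h1 u]; group
  have a2 : ∀ u, C.xb (D.neg r) u = g⁻¹ * C.xb (D.neg p) (c⁻¹ * u) * g := fun u => by rw [← h2 u]; group
  have hn : ∀ t, H85.stN (C.xb r) (C.xb (D.neg r)) t =
      g⁻¹ * H85.stN (C.xb p) (C.xb (D.neg p)) (c * t) * g := by
    intro t
    unfold H85.stN
    rw [a1, a2]
    have e2 : c⁻¹ * -t⁻¹ = -(c * t)⁻¹ := by rw [mul_inv]; ring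
    rw [e2]; group
  refine ⟨fun s t => (C.rel.add r hr s t).symm, fun s t => (C.rel.add _ (hT.neg_lt r hr) s t).symm, ?_, ?_⟩
  · intro t ht s
    have h3 := hS.conj_a (c * t) (mul_ne_zero hc0 ht) (c * s)
    have e3 : c⁻¹ * -(s / t ^ 2) = -(c * s / (c * t) ^ 2) := by field_simp
    rw [hn, a1 s, a2, e3, ← h3]; group
  · intro t ht s
    have h3 := hS.conj_b (c * t) (mul_ne_zero hc0 ht) (c⁻¹ * s)
    have e3 : c * -(s * t ^ 2) = -(c⁻¹ * s * (c * t) ^ 2) := by field_simp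
    rw [hn, a2 s, a1, e3, ← h3]; group

/-- The relations (R3) for every root, over a finite field. -/
theorem R3_root [Finite K] (r : ℕ) (hr : r < D.nroots) (t₁ t₂ : K) (h₁ : t₁ ≠ 0) (h₂ : t₂ ≠ 0) :
    nB D C.xb r t₁ * nB D C.xb r (-1) * (nB D C.xb r t₂ * nB D C.xb r (-1)) =
      nB D C.xb r (t₁ * t₂) * nB D C.xb r (-1) := by
  have hS := isSteinberg_root C r hr
  have h := H85.StFin.h_mul hS h₁ h₂
  unfold H85.stH at h
  rw [hS.n_inv 1] at h
  exact h.symm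

end R3

end Cfsg.Agent.H46
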