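import Cfsg.Agent.H46.StKer

set_option autoImplicit false
set_option linter.unusedSectionVars false

/-!
# The subgroup `H̄` under the relators (R3), and its kernel for a unimodular table of Cartan integers
-/

namespace Cfsg.Agent.H46

open Cfsg.Lie Cfsg.Agent.H23

variable {D : ChevalleyDatum} {K : Type*} [Field K] {Γ : Type*} [Group Γ] {z η : ℕ → ℕ → ℤ}

/-- A solution of a unimodular system of equations in an abelian group is trivial. -/
theorem unimod_zero {M : Type*} [AddCommGroup M] (n : ℕ) (A B : ℕ → ℕ → ℤ)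
    (hAB : ∀ i < n, ∀ k < n, ∑ j ∈ Finset.range n, A i j * B j k = if i = k then 1 else 0)
    (t : ℕ → M) (h : ∀ j < n, ∑ i ∈ Finset.range n, A i j • t i = 0) : ∀ k < n, t k = 0 := by
  intro k hk
  have h1 : ∑ j ∈ Finset.range n, B j k • ∑ i ∈ Finset.range n, A i j • t i = 0 := by
    apply Finset.sum_eq_zero
    intro j hj
    rw [h j (Finset.mem_range.mp hj), smul_zero]
  have h2 : ∑ j ∈ Finset.range n, B j k • ∑ i ∈ Finset.range n, A i j • t i =
      ∑ i ∈ Finset.range n, (∑ j ∈ Finset.range n, A i j * B j k) • t i := by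
    simp only [Finset.smul_sum, Finset.sum_smul]
    rw [Finset.sum_comm]
    apply Finset.sum_congr rfl
    intro i _
    apply Finset.sum_congr rfl
    intro j _
    rw [smul_smul, mul_comm]
  rw [h2] at h1
  have h3 : ∑ i ∈ Finset.range n, (∑ j ∈ Finset.range n, A i j * B j k) • t i =
      ∑ i ∈ Finset.range n, (if i = k then t i else 0) := by
    apply Finset.sum_congr rfl
    intro i hi
    rw [hAB i (Finset.mem_range.mp hi) k hk]
    split_ifs <;> simp
  rw [h3, Finset.sum_ite_eq' (Finset.range n) k t, if_pos (Finset.mem_range.mpr hk)] at h1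
  exact h1

/-- The multiplicative form. -/
theorem unimod_one {G : Type*} [CommGroup G] (n : ℕ) (A B : ℕ → ℕ → ℤ)
    (hAB : ∀ i < n, ∀ k < n, ∑ j ∈ Finset.range n, A i j * B j k = if i = k then 1 else 0)
    (t : ℕ → G) (h : ∀ j < n, ∏ i ∈ Finset.range n, t i ^ A i j = 1) : ∀ k < n, t k = 1 := by
  intro k hk
  have h1 := unimod_zero (M := Additive G) n A B hAB (fun i => Additive.ofMul (t i)) (fun j hj => by
    have h2 := congrArg Additive.ofMul (h j hj)
    rw [ofMul_prod] at h2
    simpa using h2) k hk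
  simpa using h1

/-- The table of integers `z (p_i) (p_j)` has an inverse over the integers. -/
def UnimodZ (D : ChevalleyDatum) (z : ℕ → ℕ → ℤ) : Prop :=
  ∃ B : ℕ → ℕ → ℤ, ∀ i < D.rank, ∀ k < D.rank,
    ∑ j ∈ Finset.range D.rank, z (D.simple i) (D.simple j) * B j k = if i = k then 1 else 0

section Torus

variable (C : StCtx D K Γ z η)

/-- The relators (R3) for the fundamental roots. -/
def R3 (C : StCtx D K Γ z η) : Prop :=
  ∀ i < D.rank, ∀ t₁ t₂ : K, t₁ ≠ 0 → t₂ ≠ 0 → hB C i t₁ * hB C i t₂ = hB C i (t₁ * t₂)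

variable {C}

theorem hB_one (h3 : R3 C) (i : ℕ) (hi : i < D.rank) : hB C i 1 = 1 := by
  have h := h3 i hi 1 1 one_ne_zero one_ne_zero
  rw [mul_one] at h
  exact mul_left_cancel (a := hB C i 1) (by rw [h, mul_one])

theorem hB_comm (h3 : R3 C) (i j : ℕ) (hi : i < D.rank) (hj : j < D.rank) (t u : K) (ht : t ≠ 0) (hu : u ≠ 0) :
    hB C i t * hB C j u = hB C j u * hB C i t := by
  have hT := C.hP.tab
  obtain ⟨c, hc0, hc⟩ := Mon_conj_nB C (Mon_hB C i hi t ht) (D.simple j) (hT.simple_lt j hj)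
  have e : reflW D [i, i] (D.simple j) = D.simple j := hT.refl_invol i hi _ (hT.simple_lt j hj)
  rw [e] at hc
  have e1 : hB C i t * hB C j u * (hB C i t)⁻¹ =
      (hB C i t * nB D C.xb (D.simple j) u * (hB C i t)⁻¹) *
        (hB C i t * nB D C.xb (D.simple j) (-1) * (hB C i t)⁻¹) := by
    have e0 : hB C j u = nB D C.xb (D.simple j) u * nB D C.xb (D.simple j) (-1) := rfl
    rw [e0]
    group
  have e2 : nB D C.xb (D.simple j) (c * -1) = (nB D C.xb (D.simple j) c)⁻¹ := by
    rw [C.nB_inv _ (hT.simple_lt j hj), mul_neg_one]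
  have e3 : hB C i t * hB C j u * (hB C i t)⁻¹ = hB C j u := by
    rw [e1, hc, hc, e2, nB_eq_hB_mul C j hj (c * u), nB_eq_hB_mul C j hj c, ← h3 j hj c u hc0 hu]
    have e4 : hB C j c * hB C j u = hB C j u * hB C j c := by
      rw [h3 j hj c u hc0 hu, h3 j hj u c hu hc0, mul_comm]
    rw [e4]
    group
  calc hB C i t * hB C j u = (hB C i t * hB C j u * (hB C i t)⁻¹) * hB C i t := by group
    _ = hB C j u * hB C i t := by rw [e3]

/-- `H̄` is commutative. -/
theorem Hb_comm (h3 : R3 C) : ∀ a ∈ Hb C, ∀ b ∈ Hb C, a * b = b * a := by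
  have h1 : Hb C ≤ Subgroup.centralizer {g | ∃ (i : ℕ) (t : K), i < D.rank ∧ t ≠ 0 ∧ g = hB C i t} := by
    unfold Hb
    rw [Subgroup.closure_le]
    rintro x ⟨i, t, hi, ht, rfl⟩
    rw [SetLike.mem_coe, Subgroup.mem_centralizer_iff]
    rintro y ⟨j, u, hj, hu, rfl⟩
    exact hB_comm h3 j i hj hi u t hu ht
  have h2 : Hb C ≤ Subgroup.centralizer (Hb C : Set Γ) := by
    conv_lhs => unfold Hb
    rw [Subgroup.closure_le]
    rintro x ⟨i, t, hi, ht, rfl⟩
    rw [SetLike.mem_coe, Subgroup.mem_centralizer_iff]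
    intro y hy
    have h4 := Subgroup.mem_centralizer_iff.mp (h1 hy) (hB C i t) ⟨i, t, hi, ht, rfl⟩
    exact h4.symm
  intro a ha b hb
  exact (Subgroup.mem_centralizer_iff.mp (h2 hb) a ha)

/-- The product of the `h̄_{p_i}(f i)` for `i < n`. -/
def prodB (C : StCtx D K Γ z η) : ℕ → (ℕ → K) → Γ
  | 0, _ => 1
  | n + 1, f => prodB C n f * hB C n (f n)

theorem prodB_mem (f : ℕ → K) (hf : ∀ i, f i ≠ 0) : ∀ n, n ≤ D.rank → prodB C n f ∈ Hb C
  | 0, _ => Subgroup.one_mem _
  | n + 1, hn => Subgroup.mul_mem _ (prodB_mem f hf n (by omega)) (hB_mem_Hb C n (by omega) _ (hf n))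

theorem prodB_one (h3 : R3 C) (f : ℕ → K) : ∀ n, n ≤ D.rank → (∀ i < n, f i = 1) → prodB C n f = 1
  | 0, _, _ => rfl
  | n + 1, hn, hf => by
    show prodB C n f * hB C n (f n) = 1
    rw [prodB_one h3 f n (by omega) (fun i hi => hf i (by omega)), hf n (by omega), hB_one h3 n (by omega),
      mul_one]

theorem prodB_mul (h3 : R3 C) (f g : ℕ → K) (hf : ∀ i, f i ≠ 0) (hg : ∀ i, g i ≠ 0) :
    ∀ n, n ≤ D.rank → prodB C n f * prodB C n g = prodB C n (fun i => f i * g i)
  | 0, _ => by show (1 : Γ) * 1 = 1; rw [mul_one]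
  | n + 1, hn => by
    show prodB C n f * hB C n (f n) * (prodB C n g * hB C n (g n)) =
      prodB C n (fun i => f i * g i) * hB C n (f n * g n)
    rw [← prodB_mul h3 f g hf hg n (by omega), ← h3 n (by omega) (f n) (g n) (hf n) (hg n)]
    have hc := Hb_comm h3 _ (hB_mem_Hb C n (by omega) (f n) (hf n)) _ (prodB_mem (C := C) g hg n (by omega))
    calc prodB C n f * hB C n (f n) * (prodB C n g * hB C n (g n))
        = prodB C n f * (hB C n (f n) * prodB C n g) * hB C n (g n) := by group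
      _ = prodB C n f * (prodB C n g * hB C n (f n)) * hB C n (g n) := by rw [hc]
      _ = _ := by group

theorem prodB_single (h3 : R3 C) (i : ℕ) (t : K) :
    ∀ n, n ≤ D.rank → prodB C n (fun j => if j = i then t else 1) = if i < n then hB C i t else 1
  | 0, _ => by simp [prodB]
  | n + 1, hn => by
    show prodB C n (fun j => if j = i then t else 1) * hB C n (if n = i then t else 1) = _
    rw [prodB_single h3 i t n (by omega)]
    by_cases h : n = i
    · subst h
      rw [if_neg (by omega), if_pos rfl, if_pos (by omega), one_mul]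
    · rw [if_neg h, hB_one h3 n (by omega), mul_one]
      by_cases h' : i < n
      · rw [if_pos h', if_pos (by omega)]
      · rw [if_neg h', if_neg (by omega)]

/-- Every element of `H̄` is a product of the `h̄_{p_i}(t_i)`. -/
theorem exists_prodB (h3 : R3 C) : ∀ k ∈ Hb C, ∃ f : ℕ → K, (∀ i, f i ≠ 0) ∧ k = prodB C D.rank f := by
  intro k hk
  unfold Hb at hk
  induction hk using Subgroup.closure_induction with
  | mem x hx =>
    obtain ⟨i, t, hi, ht, rfl⟩ := hx
    refine ⟨fun j => if j = i then t else 1, fun j => ?_, ?_⟩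
    · show (if j = i then t else 1) ≠ 0
      split_ifs
      · exact ht
      · exact one_ne_zero
    · rw [prodB_single h3 i t D.rank le_rfl, if_pos hi]
  | one => exact ⟨fun _ => 1, fun _ => one_ne_zero, (prodB_one h3 _ D.rank le_rfl (fun _ _ => rfl)).symm⟩
  | mul x y _ _ hx hy =>
    obtain ⟨f, hf, rfl⟩ := hx
    obtain ⟨g, hg, rfl⟩ := hy
    exact ⟨fun i => f i * g i, fun i => mul_ne_zero (hf i) (hg i), prodB_mul h3 f g hf hg D.rank le_rfl⟩
  | inv x _ hx =>
    obtain ⟨f, hf, rfl⟩ := hx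
    refine ⟨fun i => (f i)⁻¹, fun i => inv_ne_zero (hf i), ?_⟩
    apply inv_eq_of_mul_eq_one_right
    rw [prodB_mul h3 f _ hf (fun i => inv_ne_zero (hf i)) D.rank le_rfl]
    exact prodB_one h3 _ D.rank le_rfl (fun i _ => mul_inv_cancel₀ (hf i))

/-- The product of the `h_{p_i}(f i)` for `i < n`, in the Chevalley group. -/
def prodU (C : StCtx D K Γ z η) : ℕ → (ℕ → K) → GL D.Idx K
  | 0, _ => 1
  | n + 1, f => prodU C n f * hU C.hP.sem (D.simple n) (f n)

theorem π_prodB (f : ℕ → K) : ∀ n, C.π (prodB C n f) = prodU C n f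
  | 0 => map_one _
  | n + 1 => by
    show C.π (prodB C n f * hB C n (f n)) = prodU C n f * hU C.hP.sem (D.simple n) (f n)
    rw [map_mul, π_prodB f n, hB, map_mul, C.π_nB, C.π_nB, ← hU_eq]

theorem prodU_conj (f : ℕ → K) (hf : ∀ i, f i ≠ 0) (s : ℕ) (hs : s < D.nroots) (u : K) :
    ∀ n, n ≤ D.rank → prodU C n f * xU C.hP.sem s u * (prodU C n f)⁻¹ =
      xU C.hP.sem s ((∏ i ∈ Finset.range n, f i ^ z (D.simple i) s) * u)
  | 0, _ => by
    show (1 : GL D.Idx K) * xU C.hP.sem s u * 1⁻¹ = _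
    rw [Finset.range_zero, Finset.prod_empty, one_mul, one_mul, inv_one, mul_one]
  | n + 1, hn => by
    show prodU C n f * hU C.hP.sem (D.simple n) (f n) * xU C.hP.sem s u *
      (prodU C n f * hU C.hP.sem (D.simple n) (f n))⁻¹ = _
    have h1 := hU_conj C.hP.sem (D.simple n) (C.hP.tab.simple_lt n (by omega)) (f n) (hf n) s hs u
    have h2 := prodU_conj f hf s hs (f n ^ z (D.simple n) s * u) n (by omega)
    rw [Finset.prod_range_succ]
    calc prodU C n f * hU C.hP.sem (D.simple n) (f n) * xU C.hP.sem s u *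
          (prodU C n f * hU C.hP.sem (D.simple n) (f n))⁻¹
        = prodU C n f * (hU C.hP.sem (D.simple n) (f n) * xU C.hP.sem s u *
            (hU C.hP.sem (D.simple n) (f n))⁻¹) * (prodU C n f)⁻¹ := by group
      _ = _ := by rw [h1, h2, mul_assoc]

/-- For a unimodular table of Cartan integers, the homomorphism onto the Chevalley group is injective on `H̄`. -/
theorem Hb_ker_trivial (h3 : R3 C) (hU : UnimodZ D z) : ∀ k ∈ Hb C, C.π k = 1 → k = 1 := by
  intro k hk hπ
  obtain ⟨f, hf, rfl⟩ := exists_prodB h3 k hk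
  rw [π_prodB] at hπ
  obtain ⟨B, hB⟩ := hU
  have hT := C.hP.tab
  have h1 : ∀ j < D.rank, ∏ i ∈ Finset.range D.rank, f i ^ z (D.simple i) (D.simple j) = 1 := by
    intro j hj
    have h2 := prodU_conj (C := C) f hf (D.simple j) (hT.simple_lt j hj) 1 D.rank le_rfl
    rw [hπ, one_mul, inv_one, mul_one, mul_one] at h2
    exact (xU_inj C.hP _ (hT.simple_lt j hj) _ _ h2).symm
  have h4 := unimod_one (G := Kˣ) D.rank (fun i j => z (D.simple i) (D.simple j)) B hB
    (fun i => Units.mk0 (f i) (hf i)) (fun j hj => by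
      apply Units.ext
      rw [Units.coe_prod, Units.val_one, ← h1 j hj]
      apply Finset.prod_congr rfl
      intro i _
      rw [Units.val_zpow_eq_zpow_val, Units.val_mk0])
  apply prodB_one h3 f D.rank le_rfl
  intro i hi
  have h5 := congrArg Units.val (h4 i hi)
  rw [Units.val_mk0, Units.val_one] at h5
  exact h5

end Torus

end Cfsg.Agent.H46
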