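import Cfsg.Agent.H46.SubfDefs

set_option autoImplicit false

/-!
# `B ∩ n₀⁻¹ B n₀ ≤ H` for the longest element `n₀` (piece `S2214-A2`)
-/

namespace Cfsg.Agent.H46.Subf

open Cfsg.Lie Cfsg.Agent.H23

universe u

/-- `B ∩ n₀⁻¹ B n₀ ≤ H` for the longest element `n₀`. -/
theorem pieceA2 : StA2.{u} := by
  intro D F _ z η rT w0 hC g hg hg2
  have hP := hC.hP
  have hV := hC.hV
  have hW := hC.hW
  have hS := hP.sem
  have hT := hP.tab
  have hnorm := diagonal_le_normalizer_rootGen hS D.IsPosRoot (fun _ hr => hr.1)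
  obtain ⟨u, hu, h, hh, rfl⟩ := exists_mul_of_mem_sup _ _ hnorm g hg
  have hnN := nWU_mem hS hT w0 hW.lt
  have h3 : nWU hS w0 * h * (nWU hS w0)⁻¹ ∈ D.diagonalSubgroup F :=
    (Subgroup.mem_normalizer_iff.mp (monomial_le_normalizer_diag hS hP.semN hT hP.etaNeg hnN) _).mp hh
  have hHB : D.diagonalSubgroup F ≤ D.borelSubgroup F := le_sup_right
  have h4 : nWU hS w0 * u * (nWU hS w0)⁻¹ ∈ D.negUnipotent F :=
    conj_UmG_mem _ u (pos_le_UmG hP w0 hW hu)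
  have h5 : nWU hS w0 * u * (nWU hS w0)⁻¹ ∈ D.borelSubgroup F := by
    have e : nWU hS w0 * u * (nWU hS w0)⁻¹ =
        nWU hS w0 * (u * h) * (nWU hS w0)⁻¹ * (nWU hS w0 * h * (nWU hS w0)⁻¹)⁻¹ := by group
    rw [e]
    exact Subgroup.mul_mem _ hg2 (Subgroup.inv_mem _ (hHB h3))
  have h6 : nWU hS w0 * u * (nWU hS w0)⁻¹ ∈ D.borelSubgroup F ⊓ D.negUnipotent F := ⟨h5, h4⟩
  rw [borel_inf_neg hS hV, Subgroup.mem_bot] at h6
  have h7 : u = 1 := by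
    have e : u = (nWU hS w0)⁻¹ * (nWU hS w0 * u * (nWU hS w0)⁻¹) * nWU hS w0 := by group
    rw [e, h6]; group
  rw [h7, one_mul]
  exact hh

end Cfsg.Agent.H46.Subf
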