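import Cfsg.Agent.H46.SubfDefs
import Cfsg.Agent.H23.Centr

set_option autoImplicit false

/-!
# A diagonal element of a Chevalley group commuting with all the `x_r(1)` is trivial (piece `S2214-A3`)
-/

namespace Cfsg.Agent.H46.Subf

open Cfsg.Lie Cfsg.Agent.H23

universe u

/-- A diagonal element commuting with all the `x_r(1)` is trivial. -/
theorem pieceA3 : StA3.{u} := by
  intro D F _ z η rT w0 hC h hh hc
  have hS := hC.hP.sem
  have hT := hC.hP.tab
  obtain ⟨χ, hχ⟩ := diagonal_le_torus hS hT hh
  have h1 : ∀ r < D.nroots, χ r = 1 := by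
    intro r hr
    have e := isTorus_conj hS χ h hχ r hr 1
    rw [hc r hr, mul_inv_cancel_right, mul_one] at e
    exact (xU_injective hS hT hC.hP.tab2 r hr _ _ e).symm
  apply Units.ext
  rw [hχ.2.2.2, Units.val_one, ← Matrix.diagonal_one]
  congr 1
  funext k
  rcases k with i | r
  · exact hχ.2.2.1 i
  · exact h1 r.val r.isLt

end Cfsg.Agent.H46.Subf
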