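import Cfsg.Agent.H46.SubfDefs

set_option autoImplicit false

/-!
# An element of a Chevalley group fixed by a field endomorphism is a product of rational root elements and a
fixed diagonal element (piece `S2214-B`)

From the canonical form `g = u h n_w u'` and its uniqueness (helper23's library).
-/

namespace Cfsg.Agent.H46.Subf

open Cfsg.Lie Cfsg.Agent.H23

universe u

theorem UmS_le_LS (D : ChevalleyDatum) (F : Type u) [Field F] (σ : F →+* F) (n : GL D.Idx F) :
    UmS D F {t | σ t = t} n ≤ LS D F σ := by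
  apply Subgroup.closure_mono
  rintro x ⟨r, t, ht, -, -, hx⟩
  exact ⟨r, t, ht, hx⟩

theorem xU_mem_LS {D : ChevalleyDatum} {F : Type u} [Field F] {z : ℕ → ℕ → ℤ} (hS : Sem D F z) (σ : F →+* F)
    (r : ℕ) (t : F) (ht : σ t = t) : xU hS r t ∈ LS D F σ :=
  Subgroup.subset_closure ⟨r, t, ht, rfl⟩

theorem nWU_mem_LS {D : ChevalleyDatum} {F : Type u} [Field F] {z : ℕ → ℕ → ℤ} (hS : Sem D F z) (σ : F →+* F)
    (w : List ℕ) : nWU hS w ∈ LS D F σ := by
  induction w with
  | nil => simp [nWU]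
  | cons i w ih =>
    rw [nWU_cons, nU_eq]
    have h1 : σ (1 : F) = 1 := map_one σ
    have h2 : σ (-(1 : F)⁻¹) = -(1 : F)⁻¹ := by simp
    exact Subgroup.mul_mem _ (Subgroup.mul_mem _ (Subgroup.mul_mem _ (xU_mem_LS hS σ _ _ h1)
      (xU_mem_LS hS σ _ _ h2)) (xU_mem_LS hS σ _ _ h1)) ih

/-- An element of the Chevalley group fixed by `σ` is `l₁ h l₂` with `l₁`, `l₂` rational and `h` diagonal,
fixed by `σ`. -/
theorem pieceB : StB.{u} := by
  intro D F _ z η rT w0 hC σ g hg hfix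
  have hP := hC.hP
  have hV := hC.hV
  have hTT := hC.hTT
  have hL := hC.hL
  have hW := hC.hW
  have hS := hP.sem
  have hT := hP.tab
  set S : Set F := {t | σ t = t} with hSdef
  have hSneg : ∀ t ∈ S, -t ∈ S := by
    intro t ht
    show σ (-t) = -t
    rw [map_neg, ht]
  have hσ : ∀ t, σ t = t → t ∈ S := fun t ht => ht
  -- the canonical form
  obtain ⟨b, hb, w, hw, u', hu', rfl⟩ := canon_exists_word hP hV hTT hL g hg
  have hnN := nWU_mem hS hT w hw
  have e : glMap D σ b * nWU hS w * glMap D σ u' = b * nWU hS w * u' := by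
    rw [← hfix]
    simp only [map_mul, glMap_nWU hS hS]
  obtain ⟨hbfix, hufix⟩ := (canon_unique hP hV _ b _ _ _ u' (glMap_borel_le hS hS σ hb) hb hnN hnN
    (glMap_UmG_le hS σ _ hu') hu' e).2 rfl
  have hu'S := UmG_fixed hP hV hTT hL σ S hSneg hσ _ w hw rfl u' hu' hufix
  -- the Borel part
  have hnorm := diagonal_le_normalizer_rootGen hS D.IsPosRoot (fun _ hr => hr.1)
  obtain ⟨u, hu, h, hh, rfl⟩ := exists_mul_of_mem_sup _ _ hnorm b hb
  have hu1 : glMap D σ u ∈ D.posUnipotent F := glMap_pos_le hS hS σ hu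
  have hh1 : glMap D σ h ∈ D.diagonalSubgroup F := glMap_diag_le hS hS σ hh
  rw [map_mul] at hbfix
  have h1 : u⁻¹ * glMap D σ u = h * (glMap D σ h)⁻¹ := by
    have : glMap D σ u = u * h * (glMap D σ h)⁻¹ := by rw [← hbfix]; group
    rw [this]; group
  have h2 : u⁻¹ * glMap D σ u ∈ D.posUnipotent F ⊓ D.monomialSubgroup F := by
    refine ⟨Subgroup.mul_mem _ (Subgroup.inv_mem _ hu) hu1, ?_⟩
    rw [h1]
    exact diagonal_le_monomial (Subgroup.mul_mem _ hh (Subgroup.inv_mem _ hh1))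
  rw [posUnipotent_inf_monomial hS, Subgroup.mem_bot] at h2
  have hufix2 : glMap D σ u = u := by
    have : glMap D σ u = u * (u⁻¹ * glMap D σ u) := by group
    rw [this, h2, mul_one]
  have hhfix : glMap D σ h = h := by
    rw [hufix2] at hbfix
    exact mul_left_cancel hbfix
  have huS := UmG_fixed hP hV hTT hL σ S hSneg hσ _ w0 hW.lt rfl u (pos_le_UmG hP w0 hW hu) hufix2
  refine ⟨u, UmS_le_LS D F σ _ huS, h, hh, nWU hS w * u', ?_, hhfix, ?_⟩
  · exact Subgroup.mul_mem _ (nWU_mem_LS hS σ w) (UmS_le_LS D F σ _ hu'S)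
  · group

end Cfsg.Agent.H46.Subf
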