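import Cfsg.Agent.H23.FieldIso
import Cfsg.Agent.H23.CanonTab

set_option autoImplicit false

/-!
# Subgroups of a Chevalley group over a subfield: statements of the pieces

`σ` is an endomorphism of the field `F`; `LS D F σ` is the subgroup generated by the root elements `x_s(t)` with
`σ t = t`. The pieces: an element of the Chevalley group commuting with the `x_r(1)` is trivial (`StA1`, `StA2`,
`StA3`), and an element fixed by the entrywise action of `σ` is a product `l₁ h l₂` with `l₁`, `l₂` in `LS` and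
`h` a diagonal element fixed by `σ` (`StB`).
-/

namespace Cfsg.Agent.H46.Subf

open Cfsg.Lie Cfsg.Agent.H23

universe u

/-- The table facts on a datum used for the canonical form `g = b n u`. -/
structure PackC (D : ChevalleyDatum) (F : Type u) [Field F] (z η : ℕ → ℕ → ℤ) (rT w0 : List ℕ) : Prop where
  hP : PackB D F z η
  hV : SemV D F
  hTT : TabT D rT
  hL : TabL D rT
  hW : TabW D w0

/-- The subgroup generated by the root elements with parameter fixed by `σ`. -/
def LS (D : ChevalleyDatum) (F : Type u) [Field F] (σ : F →+* F) : Subgroup (GL D.Idx F) :=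
  Subgroup.closure {g | ∃ (s : ℕ) (t : F), σ t = t ∧ (g : Matrix D.Idx D.Idx F) = D.x F s t}

/-- An element of the Chevalley group commuting with the `x_r(1)`, `r` positive, lies in `B`. -/
def StA1 : Prop :=
  ∀ (D : ChevalleyDatum) (F : Type u) [Field F] (z η : ℕ → ℕ → ℤ) (rT w0 : List ℕ)
    (hC : PackC D F z η rT w0) (g : GL D.Idx F), g ∈ D.group F →
    (∀ r, D.IsPosRoot r → g * xU hC.hP.sem r 1 = xU hC.hP.sem r 1 * g) → g ∈ D.borelSubgroup F

/-- `B ∩ n₀⁻¹ B n₀ ≤ H` for the longest element `n₀`. -/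
def StA2 : Prop :=
  ∀ (D : ChevalleyDatum) (F : Type u) [Field F] (z η : ℕ → ℕ → ℤ) (rT w0 : List ℕ)
    (hC : PackC D F z η rT w0) (g : GL D.Idx F), g ∈ D.borelSubgroup F →
    nWU hC.hP.sem w0 * g * (nWU hC.hP.sem w0)⁻¹ ∈ D.borelSubgroup F → g ∈ D.diagonalSubgroup F

/-- A diagonal element commuting with all the `x_r(1)` is trivial. -/
def StA3 : Prop :=
  ∀ (D : ChevalleyDatum) (F : Type u) [Field F] (z η : ℕ → ℕ → ℤ) (rT w0 : List ℕ)
    (hC : PackC D F z η rT w0) (h : GL D.Idx F), h ∈ D.diagonalSubgroup F →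
    (∀ r < D.nroots, h * xU hC.hP.sem r 1 = xU hC.hP.sem r 1 * h) → h = 1

/-- An element of the Chevalley group fixed by `σ` is `l₁ h l₂` with `l₁`, `l₂` rational and `h` diagonal,
fixed by `σ`. -/
def StB : Prop :=
  ∀ (D : ChevalleyDatum) (F : Type u) [Field F] (z η : ℕ → ℕ → ℤ) (rT w0 : List ℕ)
    (_ : PackC D F z η rT w0) (σ : F →+* F) (g : GL D.Idx F), g ∈ D.group F → glMap D σ g = g →
    ∃ l₁ ∈ LS D F σ, ∃ h ∈ D.diagonalSubgroup F, ∃ l₂ ∈ LS D F σ, glMap D σ h = h ∧ g = l₁ * h * l₂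

end Cfsg.Agent.H46.Subf
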