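import Cfsg.Agent.H46.SubfDefs
import Cfsg.Agent.H46.StAll
import Cfsg.Agent.H23.Centr
import Cfsg.Agent.H23.Conj

set_option autoImplicit false
set_option linter.unusedSectionVars false

/-!
# Subgroups of a Chevalley group over a subfield: centralizer and normalizer

Let `σ` be an endomorphism of the field `F` and `K` a subgroup of the Chevalley group containing the root elements
with parameter fixed by `σ` and consisting of elements fixed by `σ`. Then the centralizer of `K` in the Chevalley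
group is trivial and its normalizer is the group of the elements fixed by `σ` (from the pieces of `SubfDefs`).
-/

namespace Cfsg.Agent.H46.Subf

open Cfsg.Lie Cfsg.Agent.H23 Cfsg.Agent.H46

universe u

/-- The bundle holds for each of the seven tabulated data. -/
theorem packC_all (F : Type u) [Field F] (D : ChevalleyDatum)
    (hD : D ∈ [chevG2, chevB2, chevD4, chevF4, chevE6, chevE7, chevE8]) : ∃ z η rT w0, PackC D F z η rT w0 := by
  simp only [List.mem_cons, List.not_mem_nil, or_false] at hD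
  rcases hD with rfl | rfl | rfl | rfl | rfl | rfl | rfl
  · exact ⟨_, _, _, _, (packSt_G2 F).hP, (packSt_G2 F).hV, tabT_G2, tabL_G2, tabW_G2⟩
  · exact ⟨_, _, _, _, (packSt_B2 F).hP, (packSt_B2 F).hV, tabT_B2, tabL_B2, tabW_B2⟩
  · exact ⟨_, _, _, _, (packSt_D4 F).hP, (packSt_D4 F).hV, tabT_D4, tabL_D4, tabW_D4⟩
  · exact ⟨_, _, _, _, (packSt_F4 F).hP, (packSt_F4 F).hV, tabT_F4, tabL_F4, tabW_F4⟩
  · exact ⟨_, _, _, _, (packSt_E6 F).hP, (packSt_E6 F).hV, tabT_E6, tabL_E6, tabW_E6⟩
  · exact ⟨_, _, _, _, (packSt_E7 F).hP, (packSt_E7 F).hV, tabT_E7, tabL_E7, tabW_E7⟩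
  · exact ⟨_, _, _, _, (packSt_E8 F).hP, (packSt_E8 F).hV, tabT_E8, tabL_E8, tabW_E8⟩

section

variable {D : ChevalleyDatum} {F : Type u} [Field F] {z η : ℕ → ℕ → ℤ} {rT w0 : List ℕ}

theorem comm_nU (hS : Sem D F z) (hT : Tab D) (g : GL D.Idx F)
    (hc : ∀ r < D.nroots, g * xU hS r 1 = xU hS r 1 * g) (r : ℕ) (hr : r < D.nroots) :
    g * nU hS r 1 = nU hS r 1 * g := by
  have h1 : Commute g (xU hS r 1) := hc r hr
  have h2 : Commute g (xU hS (D.neg r) (-1⁻¹)) := by
    have e : xU hS (D.neg r) (-1⁻¹) = (xU hS (D.neg r) 1)⁻¹ := by rw [xU_inv, inv_one]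
    rw [e]
    exact Commute.inv_right (hc _ (hT.neg_lt r hr))
  have e : nU hS r 1 = xU hS r 1 * (xU hS (D.neg r) (-1⁻¹) * (xU hS r 1 * 1)) := by
    unfold nU ChevalleyDatum.nWord
    rw [wordU_cons, wordU_cons, wordU_cons, wordU_nil]
  rw [e]
  exact h1.mul_right (h2.mul_right (h1.mul_right (Commute.one_right g)))

theorem comm_nWU (hS : Sem D F z) (hT : Tab D) (g : GL D.Idx F)
    (hc : ∀ r < D.nroots, g * xU hS r 1 = xU hS r 1 * g) (w : List ℕ) (hw : ∀ i ∈ w, i < D.rank) :
    g * nWU hS w = nWU hS w * g := by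
  induction w with
  | nil => simp [nWU]
  | cons i w ih =>
    have h1 : Commute g (nU hS (D.simple i) 1) :=
      comm_nU hS hT g hc _ (hT.simple_lt i (hw i (List.mem_cons_self ..)))
    have h2 : Commute g (nWU hS w) := ih (fun j hj => hw j (List.mem_cons_of_mem _ hj))
    rw [nWU_cons]
    exact h1.mul_right h2

/-- An element of the Chevalley group commuting with all the `x_r(1)` is trivial. -/
theorem cent_trivial (hA1 : StA1.{u}) (hA2 : StA2.{u}) (hA3 : StA3.{u}) (hC : PackC D F z η rT w0)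
    (g : GL D.Idx F) (hg : g ∈ D.group F)
    (hc : ∀ r < D.nroots, g * xU hC.hP.sem r 1 = xU hC.hP.sem r 1 * g) : g = 1 := by
  have hS := hC.hP.sem
  have hB1 : g ∈ D.borelSubgroup F := hA1 D F z η rT w0 hC g hg (fun r hr => hc r hr.1)
  have hn := comm_nWU hC.hP.sem hC.hP.tab g hc w0 hC.hW.lt
  have hB2 : nWU hC.hP.sem w0 * g * (nWU hC.hP.sem w0)⁻¹ ∈ D.borelSubgroup F := by
    rw [← hn, mul_inv_cancel_right]
    exact hB1
  exact hA3 D F z η rT w0 hC g (hA2 D F z η rT w0 hC g hB1 hB2) hc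

/-- Diagonal elements fixed by `σ` normalize the rational subgroup. -/
theorem diag_conj_LS (hC : PackC D F z η rT w0) (σ : F →+* F) (h : GL D.Idx F)
    (hh : h ∈ D.diagonalSubgroup F) (hfix : glMap D σ h = h) :
    ∀ m ∈ LS D F σ, h * m * h⁻¹ ∈ LS D F σ := by
  have hS := hC.hP.sem
  have hT := hC.hP.tab
  obtain ⟨χ, hχ⟩ := diagonal_le_torus hS hT hh
  have key : LS D F σ ≤ (LS D F σ).comap (MulAut.conj h).toMonoidHom := by
    unfold LS
    rw [Subgroup.closure_le]
    rintro m ⟨s, t, ht, hm⟩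
    show h * m * h⁻¹ ∈ Subgroup.closure _
    rw [eq_xU hS m s t hm]
    by_cases hs : s < D.nroots
    · rw [isTorus_conj hS χ h hχ s hs t]
      apply Subgroup.subset_closure
      refine ⟨s, χ s * t, ?_, rfl⟩
      have h1 := congrArg (fun g : GL D.Idx F => (g : Matrix D.Idx D.Idx F) (Sum.inr ⟨s, hs⟩) (Sum.inr ⟨s, hs⟩))
        hfix
      simp only [glMap_apply] at h1
      rw [hχ.2.2.2, Matrix.diagonal_apply_eq] at h1
      have h2 : ix D (Sum.inr ⟨s, hs⟩ : D.Idx) = s := rfl
      rw [h2] at h1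
      rw [map_mul, h1, ht]
    · rw [xU_of_ge hS s (by omega), mul_one, mul_inv_cancel]
      exact Subgroup.one_mem _
  exact fun m hm => key hm

/-- The centralizer and the normalizer of a subgroup between the rational root elements and the fixed points of
`σ`. -/
theorem main (hA1 : StA1.{u}) (hA2 : StA2.{u}) (hA3 : StA3.{u}) (hB : StB.{u}) (hC : PackC D F z η rT w0)
    (σ : F →+* F) (K : Subgroup (GL D.Idx F)) (hKG : K ≤ D.group F) (hLK : LS D F σ ≤ K)
    (hKfix : ∀ g ∈ K, glMap D σ g = g) :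
    D.group F ⊓ Subgroup.centralizer (K : Set (GL D.Idx F)) = ⊥ ∧
      ∀ g : GL D.Idx F, g ∈ D.group F →
        (g ∈ Subgroup.normalizer (K : Set (GL D.Idx F)) ↔ glMap D σ g = g) := by
  have hS := hC.hP.sem
  have hT := hC.hP.tab
  have hxK : ∀ r : ℕ, xU hS r 1 ∈ K := by
    intro r
    apply hLK
    exact Subgroup.subset_closure ⟨r, 1, map_one σ, rfl⟩
  refine ⟨?_, ?_⟩
  · rw [eq_bot_iff]
    rintro g ⟨hg, hcen⟩
    rw [Subgroup.mem_bot]
    apply cent_trivial hA1 hA2 hA3 hC g hg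
    intro r _
    exact (Subgroup.mem_centralizer_iff.mp hcen _ (hxK r)).symm
  · intro g hg
    constructor
    · intro hnorm
      have hσg : glMap D σ g ∈ D.group F := glMap_group_le hS hS σ (Subgroup.mem_map_of_mem _ hg)
      have h1 : g⁻¹ * glMap D σ g = 1 := by
        apply cent_trivial hA1 hA2 hA3 hC _ (Subgroup.mul_mem _ (Subgroup.inv_mem _ hg) hσg)
        intro r _
        have hx := hxK r
        have hy : g * xU hS r 1 * g⁻¹ ∈ K := (Subgroup.mem_normalizer_iff.mp hnorm _).mp hx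
        have e1 := hKfix _ hy
        rw [map_mul, map_mul, map_inv, hKfix _ hx] at e1
        have e2 : glMap D σ g * xU hS r 1 = g * xU hS r 1 * g⁻¹ * glMap D σ g := by
          rw [← e1]; group
        calc g⁻¹ * glMap D σ g * xU hS r 1 = g⁻¹ * (glMap D σ g * xU hS r 1) := by group
          _ = g⁻¹ * (g * xU hS r 1 * g⁻¹ * glMap D σ g) := by rw [e2]
          _ = xU hS r 1 * (g⁻¹ * glMap D σ g) := by group
      calc glMap D σ g = g * (g⁻¹ * glMap D σ g) := by group
        _ = g := by rw [h1, mul_one]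
    · intro hfix
      -- diagonal elements fixed by `σ` normalize `K`
      have hdiag : ∀ h : GL D.Idx F, h ∈ D.diagonalSubgroup F → glMap D σ h = h →
          ∀ x ∈ K, h * x * h⁻¹ ∈ K := by
        intro h hh hhfix x hx
        obtain ⟨m₁, hm₁, h', hh', m₂, hm₂, -, e⟩ := hB D F z η rT w0 hC σ x (hKG hx) (hKfix x hx)
        have hcomm := diag_commute hS hT h h' hh hh'
        have e1 : h * x * h⁻¹ = (h * m₁ * h⁻¹) * m₁⁻¹ * x * m₂⁻¹ * (h * m₂ * h⁻¹) := by
          have e2 : h' = m₁⁻¹ * x * m₂⁻¹ := by rw [e]; group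
          have e3 : h * x * h⁻¹ = (h * m₁ * h⁻¹) * (h * h' * h⁻¹) * (h * m₂ * h⁻¹) := by rw [e]; group
          rw [e3, hcomm, mul_inv_cancel_right, e2]
          group
        rw [e1]
        have c1 := hLK (diag_conj_LS hC σ h hh hhfix m₁ hm₁)
        have c2 := hLK (diag_conj_LS hC σ h hh hhfix m₂ hm₂)
        exact Subgroup.mul_mem _ (Subgroup.mul_mem _ (Subgroup.mul_mem _ (Subgroup.mul_mem _ c1
          (Subgroup.inv_mem _ (hLK hm₁))) hx) (Subgroup.inv_mem _ (hLK hm₂))) c2
      have hdiagN : ∀ h : GL D.Idx F, h ∈ D.diagonalSubgroup F → glMap D σ h = h →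
          h ∈ Subgroup.normalizer (K : Set (GL D.Idx F)) := by
        intro h hh hhfix
        rw [Subgroup.mem_normalizer_iff]
        intro x
        constructor
        · exact hdiag h hh hhfix x
        · intro hx
          have h1 := hdiag h⁻¹ (Subgroup.inv_mem _ hh) (by rw [map_inv, hhfix]) _ hx
          have e : h⁻¹ * (h * x * h⁻¹) * h⁻¹⁻¹ = x := by group
          rw [e] at h1
          exact h1
      obtain ⟨l₁, hl₁, h, hh, l₂, hl₂, hhfix, rfl⟩ := hB D F z η rT w0 hC σ g hg hfix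
      have hKN : K ≤ Subgroup.normalizer (K : Set (GL D.Idx F)) := Subgroup.le_normalizer
      exact Subgroup.mul_mem _ (Subgroup.mul_mem _ (hKN (hLK hl₁)) (hdiagN h hh hhfix)) (hKN (hLK hl₂))

end

end Cfsg.Agent.H46.Subf
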